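import Mathlib
import Cfsg.Agent.S0729
import Cfsg.Agent.S0738
import Cfsg.Agent.Lib.Perm.ZassAb9
import Cfsg.Agent.Lib.Char.Zass
import Cfsg.Agent.Lib.ZassEven.Parity

/-!
A simple Zassenhaus group cannot be sharply triply transitive of even degree.
-/

set_option autoImplicit false
set_option linter.style.haveILetI false

namespace Cfsg.Agent.Lib.ZassEven

open MulAction

variable {G Ω : Type*} [Group G] [Finite G] [MulAction G Ω] [Fintype Ω]

/-- The regular normal subgroup of a point stabiliser in a Zassenhaus group. -/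
theorem exists_reg (hZ : Cfsg.IsZassenhausGroup G Ω) {a b : Ω} (hab : a ≠ b) :
    ∃ F : Subgroup G, F ≤ stabilizer G a ∧ Nat.card F + 1 = Fintype.card Ω ∧
      (∀ u ∈ F, u ≠ 1 → ∀ c : Ω, u • c = c → c = a) ∧
      (∀ y z : Ω, y ≠ a → z ≠ a → ∃! u : F, (u : G) • y = z) ∧
      ∀ {g u : G}, g • a = a → u ∈ F → g * u * g⁻¹ ∈ F := by
  classical
  obtain ⟨F, hFa, hFc, hFfix⟩ := Lib.Char.zass_exists_kernel hZ hab
  have hFconj : ∀ {g u : G}, g • a = a → u ∈ F → g * u * g⁻¹ ∈ F := fun hg hu =>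
    Lib.Char.zass_kernel_conj_mem hZ hab F hFa hFc hFfix hg hu
  have hcompl : Nat.card {x : Ω // x ≠ a} = Nat.card F := by
    have h1 : Fintype.card {x : Ω // x ≠ a} + 1 = Fintype.card Ω := by
      have := Fintype.card_congr (Equiv.optionSubtypeNe a)
      rwa [Fintype.card_option] at this
    rw [Nat.card_eq_fintype_card]
    omega
  refine ⟨F, hFa, hFc, hFfix, ?_, hFconj⟩
  intro y z hy hz
  have hne : ∀ u : F, (u : G) • y ≠ a := by
    intro u h0
    apply hy
    have h1 : (u : G) • a = a := hFa u.2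
    exact smul_left_cancel (u : G) (h0.trans h1.symm)
  let f : F → {x : Ω // x ≠ a} := fun u => ⟨(u : G) • y, hne u⟩
  have hfinj : Function.Injective f := by
    intro u v huv
    have h1 : (u : G) • y = (v : G) • y := congrArg Subtype.val huv
    have h2 : ((v : G)⁻¹ * u) • y = y := by
      rw [mul_smul, h1, inv_smul_smul]
    by_contra hne'
    have h3 : (v : G)⁻¹ * u ≠ 1 := by
      intro h0
      rw [inv_mul_eq_one] at h0
      exact hne' (Subtype.ext h0.symm)
    exact hy (hFfix _ (mul_mem (inv_mem v.2) u.2) h3 y h2)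
  have hfsurj : Function.Surjective f :=
    (Function.Injective.bijective_of_nat_card_le hfinj hcompl.le).2
  obtain ⟨u, hu⟩ := hfsurj ⟨z, hz⟩
  have hu' : (u : G) • y = z := congrArg Subtype.val hu
  refine ⟨u, hu', fun v hv => ?_⟩
  apply hfinj
  apply Subtype.ext
  show (v : G) • y = (u : G) • y
  rw [hv, hu']

/-- Zassenhaus groups with `n - 2 = d` are sharply triply transitive. -/
theorem sharp_of_card (hZ : Cfsg.IsZassenhausGroup G Ω) {a b : Ω} (hab : a ≠ b)
    (hn : Fintype.card Ω = Nat.card ↥(stabilizer G a ⊓ stabilizer G b) + 2) :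
    MulAction.IsMultiplyPretransitive G Ω 3 ∧ ∀ t : Fin 3 ↪ Ω, MulAction.stabilizer G t = ⊥ := by
  classical
  haveI := Fintype.ofFinite G
  obtain ⟨F, hFa, hFc, hFfix, hFreg, hFconj⟩ := exists_reg hZ hab
  have hFcomm : IsMulCommutative F := by
    have h1 := Cfsg.Agent.S0738.result hZ hab (by omega) F hFa
      ⟨fun n hn g => by
        have h2 : ((g : G) * (n : stabilizer G a) * (g : G)⁻¹) ∈ F :=
          hFconj g.2 (Subgroup.mem_subgroupOf.mp hn)
        exact Subgroup.mem_subgroupOf.mpr h2⟩ hFreg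
    exact h1.1
  have S : Lib.Perm.ZA.Setup G Ω a b F := by
    refine ⟨hZ, hab, hFa, hFc, hFfix, ?_⟩
    intro u hu v hv
    have h1 := hFcomm.is_comm.comm (⟨u, hu⟩ : F) ⟨v, hv⟩
    exact congrArg Subtype.val h1
  exact S.sharply_three (by omega)

/-- A normal subgroup of index two of the two-point stabiliser, stable under a swap. -/
theorem exists_N (hZ : Cfsg.IsZassenhausGroup G Ω) {a b c : Ω} (hab : a ≠ b) (hac : a ≠ c)
    (hbc : b ≠ c) (h3 : MulAction.IsMultiplyPretransitive G Ω 3)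
    (hsh : ∀ t : Fin 3 ↪ Ω, MulAction.stabilizer G t = ⊥) (heven : Even (Fintype.card Ω))
    (h6 : 6 ≤ Fintype.card Ω) {s : G} (hsa : s • a = b) (hsb : s • b = a) (hsc : s • c = c) :
    ∃ N : Subgroup G, N ≤ stabilizer G a ⊓ stabilizer G b ∧
      N.relIndex (stabilizer G a ⊓ stabilizer G b) = 2 ∧ ∀ n ∈ N, s * n * s⁻¹ ∈ N := by
  classical
  haveI : FaithfulSMul G Ω := hZ.1
  let φ : G →* Equiv.Perm Ω := MulAction.toPermHom G Ω
  have hφ : Function.Injective φ := by
    intro g₁ g₂ e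
    apply FaithfulSMul.eq_of_smul_eq_smul (α := Ω)
    intro p
    exact congrArg (fun σ : Equiv.Perm Ω => σ p) e
  let R : Subgroup (Equiv.Perm Ω) := φ.range
  let e₀ : G ≃* R := MonoidHom.ofInjective hφ
  have he₀ : ∀ (g : G) (x : Ω), (e₀ g) • x = g • x := fun _ _ => rfl
  have h3' : MulAction.IsMultiplyPretransitive R Ω 3 := by
    rw [MulAction.isMultiplyPretransitive_iff]
    intro x y
    obtain ⟨g, hg⟩ := (MulAction.isMultiplyPretransitive_iff.1 h3) x y
    refine ⟨⟨φ g, g, rfl⟩, ?_⟩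
    ext i
    have h1 := congrArg (fun z : Fin 3 ↪ Ω => z i) hg
    exact h1
  have hs' : ∀ x : Fin 3 ↪ Ω, MulAction.stabilizer R x = ⊥ := by
    intro x
    rw [eq_bot_iff]
    rintro ⟨_, g, rfl⟩ hr
    rw [MulAction.mem_stabilizer_iff] at hr
    have h1 : g ∈ MulAction.stabilizer G x := by
      rw [MulAction.mem_stabilizer_iff]
      ext i
      have h2 := congrArg (fun z : Fin 3 ↪ Ω => z i) hr
      exact h2
    rw [hsh x, Subgroup.mem_bot] at h1
    rw [Subgroup.mem_bot]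
    apply Subtype.ext
    show φ g = 1
    rw [h1, map_one]
  obtain ⟨N₀, hN₀, -, hN₀i, hN₀s⟩ := Cfsg.Agent.S0729.result heven h6 R h3' hs' hab hac hbc (e₀ s)
    (by rw [he₀, hsa]) (by rw [he₀, hsb]) (by rw [he₀, hsc])
  refine ⟨N₀.comap e₀.toMonoidHom, ?_, ?_, ?_⟩
  · intro g hg
    have h1 := hN₀ hg
    exact ⟨h1.1, h1.2⟩
  · rw [Subgroup.relIndex_comap]
    have h4 : (stabilizer G a ⊓ stabilizer G b).map e₀.toMonoidHom =
        stabilizer R a ⊓ stabilizer R b := by
      ext r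
      constructor
      · rintro ⟨g, hg, rfl⟩
        exact ⟨hg.1, hg.2⟩
      · intro hr
        refine ⟨e₀.symm r, ⟨?_, ?_⟩, by simp⟩
        · show (e₀.symm r) • a = a
          rw [← he₀]
          simpa using hr.1
        · show (e₀.symm r) • b = b
          rw [← he₀]
          simpa using hr.2
    rw [h4, hN₀i]
  · intro n hn
    have h1 := hN₀s _ hn
    show e₀ (s * n * s⁻¹) ∈ N₀
    rw [map_mul, map_mul, map_inv]
    exact h1

/-- A simple Zassenhaus group is not sharply triply transitive of even degree. -/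
theorem false_of_sharp [IsSimpleGroup G] (hZ : Cfsg.IsZassenhausGroup G Ω) {a b : Ω} (hab : a ≠ b)
    (heven : Even (Nat.card ↥(stabilizer G a ⊓ stabilizer G b)))
    (hn : Fintype.card Ω = Nat.card ↥(stabilizer G a ⊓ stabilizer G b) + 2) : False := by
  classical
  set E : Subgroup G := stabilizer G a ⊓ stabilizer G b with hE
  have hd0 : 0 < Nat.card E := Nat.card_pos
  have hd2 : 2 ≤ Nat.card E := by
    obtain ⟨k, hk⟩ := heven
    omega
  obtain ⟨h3, hsh⟩ := sharp_of_card hZ hab hn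
  obtain ⟨F, hFa, hFc, hFfix, hFreg, hFconj⟩ := exists_reg hZ hab
  have htri : ∀ (a b c : Ω), a ≠ b → a ≠ c → b ≠ c → ∃ x : Fin 3 ↪ Ω, x 0 = a ∧ x 1 = b ∧ x 2 = c := by
    intro a b c hab hac hbc
    refine ⟨⟨![a, b, c], ?_⟩, rfl, rfl, rfl⟩
    intro i j h
    fin_cases i <;> fin_cases j <;> simp_all
  have hT : ∀ a b c a' b' c' : Ω, a ≠ b → a ≠ c → b ≠ c → a' ≠ b' → a' ≠ c' → b' ≠ c' →
      ∃ g : G, g • a = a' ∧ g • b = b' ∧ g • c = c' := by
    intro a b c a' b' c' h1 h2 h3' h4 h5 h6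
    obtain ⟨x, hx0, hx1, hx2⟩ := htri a b c h1 h2 h3'
    obtain ⟨y, hy0, hy1, hy2⟩ := htri a' b' c' h4 h5 h6
    obtain ⟨g, hg⟩ := MulAction.IsPretransitive.exists_smul_eq (M := G) x y
    refine ⟨g, ?_, ?_, ?_⟩
    · rw [← hx0, ← hy0, ← hg]; rfl
    · rw [← hx1, ← hy1, ← hg]; rfl
    · rw [← hx2, ← hy2, ← hg]; rfl
  -- a third point
  obtain ⟨c, hca, hcb⟩ : ∃ c : Ω, c ≠ a ∧ c ≠ b := by
    by_contra hcon
    push Not at hcon
    have h4 : (Finset.univ : Finset Ω) ⊆ {a, b} := by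
      intro y _
      by_cases hy : y = a
      · simp [hy]
      · simp [hcon y hy]
    have h5 := Finset.card_le_card h4
    rw [Finset.card_univ, Finset.card_pair hab] at h5
    omega
  have hac : a ≠ c := Ne.symm hca
  have hbc : b ≠ c := Ne.symm hcb
  obtain ⟨s, hsa, hsb, hsc⟩ := hT a b c b a c hab hac hbc hab.symm hbc hac
  have hss : s * s = 1 := hZ.2.2.1 (s * s) a b c hab hbc hac
    (by rw [mul_smul, hsa, hsb]) (by rw [mul_smul, hsb, hsa]) (by rw [mul_smul, hsc, hsc])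
  have hsi : s⁻¹ = s := inv_eq_of_mul_eq_one_left hss
  -- a stable subgroup of index two
  obtain ⟨N, hNE, hNi, hNs⟩ : ∃ N : Subgroup G, N ≤ E ∧ N.relIndex E = 2 ∧
      ∀ n ∈ N, s * n * s⁻¹ ∈ N := by
    by_cases h2 : Nat.card E = 2
    · refine ⟨⊥, bot_le, ?_, ?_⟩
      · rw [Subgroup.relIndex_bot_left, h2]
      · intro n hn
        rw [Subgroup.mem_bot] at hn ⊢
        rw [hn]
        group
    · have h4 : 4 ≤ Nat.card E := by
        obtain ⟨k, hk⟩ := heven
        omega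
      exact exists_N hZ hab hac hbc h3 hsh (by rw [hn]; exact heven.add even_two) (by omega) hsa hsb hsc
  have hNi' : (N.subgroupOf E).index = 2 := hNi
  have hmulmem : ∀ x ∈ E, ∀ y ∈ E, (x * y ∈ N ↔ (x ∈ N ↔ y ∈ N)) := by
    intro x hx y hy
    have h1 := Subgroup.mul_mem_iff_of_index_two hNi' (a := ⟨x, hx⟩) (b := ⟨y, hy⟩)
    simpa [Subgroup.mem_subgroupOf] using h1
  let χ : G → ℤˣ := fun g => if g ∈ N then 1 else -1
  have hχ : ∀ x ∈ E, ∀ y ∈ E, χ (x * y) = χ x * χ y := by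
    intro x hx y hy
    have h1 := hmulmem x hx y hy
    by_cases h2 : x ∈ N <;> by_cases h4 : y ∈ N <;> simp [χ, h1, h2, h4]
  have hσ : ∀ h ∈ E, χ (s * h * s) = χ h := by
    intro h _
    have h1 : s * h * s ∈ N ↔ h ∈ N := by
      constructor
      · intro h2
        have h4 := hNs _ h2
        rw [hsi] at h4
        have h5 : s * (s * h * s) * s = h := by
          calc s * (s * h * s) * s = (s * s) * h * (s * s) := by group
            _ = h := by rw [hss]; group
        rwa [h5] at h4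
      · intro h2
        have h4 := hNs _ h2
        rwa [hsi] at h4
    simp [χ, h1]
  -- an element of the kernel
  obtain ⟨t₀, ht₀, ht₀b⟩ : ∃ t₀ ∈ F, t₀ • b = c := by
    obtain ⟨u, hu, -⟩ := hFreg b c hab.symm hca
    exact ⟨u, u.2, hu⟩
  have ht₀1 : t₀ ≠ 1 := by
    intro h0
    rw [h0, one_smul] at ht₀b
    exact hbc ht₀b
  obtain ⟨ε, hεF, hεE⟩ := exists_parity hab hFa hFreg hFconj
    (by
      intro x y hxa hxb hya hyb
      obtain ⟨g, h1, h2, h4⟩ := hT a b x a b y hab (Ne.symm hxa) (Ne.symm hxb) hab (Ne.symm hya) (Ne.symm hyb)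
      exact ⟨g, ⟨h1, h2⟩, h4⟩) hsa hsb hss ht₀ ht₀1 χ hχ hσ
  -- simplicity
  rcases IsSimpleGroup.eq_bot_or_eq_top_of_normal ε.ker inferInstance with h | h
  · have h1 : t₀ ∈ ε.ker := hεF t₀ ht₀
    rw [h, Subgroup.mem_bot] at h1
    exact ht₀1 h1
  · have h1 : ∃ h₀ ∈ E, h₀ ∉ N := by
      by_contra hcon
      push Not at hcon
      have h2 : N.relIndex E = 1 := Subgroup.relIndex_eq_one.mpr hcon
      omega
    obtain ⟨h₀, hh₀, hh₀N⟩ := h1
    have h2 : h₀ ∈ ε.ker := by
      rw [h]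
      exact Subgroup.mem_top _
    have h4 : ε h₀ = 1 := h2
    rw [hεE h₀ hh₀] at h4
    simp [χ, hh₀N] at h4

end Cfsg.Agent.Lib.ZassEven
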