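import Mathlib
import Cfsg.Agent.Lib.ZassEven.Sharp
import Cfsg.Agent.Lib.Perm.ZassPSL
import Cfsg.Agent.Lib.InvCent.Trivial

/-!
Simple Zassenhaus groups with two-point stabilisers of even order: the numerical relation and the
cyclicity of the two-point stabiliser.
-/

set_option autoImplicit false
set_option linter.style.haveILetI false

namespace Cfsg.Agent.Lib.ZassEven

open MulAction

variable {G Ω : Type*} [Group G] [Finite G] [MulAction G Ω] [Fintype Ω]

/-- The two-point stabiliser acts semiregularly on the remaining points. -/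
theorem card_dvd (hZ : Cfsg.IsZassenhausGroup G Ω) {a b : Ω} (hab : a ≠ b) :
    Nat.card ↥(stabilizer G a ⊓ stabilizer G b) ∣ Fintype.card Ω - 2 := by
  classical
  set E : Subgroup G := stabilizer G a ⊓ stabilizer G b with hE
  let S0 : Finset Ω := (Finset.univ.erase a).erase b
  have hS0 : S0.card = Fintype.card Ω - 2 := by
    rw [Finset.card_erase_of_mem (Finset.mem_erase.mpr ⟨Ne.symm hab, Finset.mem_univ _⟩),
      Finset.card_erase_of_mem (Finset.mem_univ _), Finset.card_univ]
    omega
  have hmem : ∀ x, x ∈ (S0 : Set Ω) ↔ x ≠ b ∧ x ≠ a := by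
    intro x
    simp [S0, and_comm]
  have h2 := Lib.InvCent.card_dvd_of_free (H := E) (X := Ω) (S0 : Set Ω)
    (by
      intro k x hx
      rw [hmem] at hx ⊢
      constructor
      · intro h0
        apply hx.1
        apply smul_left_cancel (k : G)
        exact h0.trans (show (k : G) • b = b from k.2.2).symm
      · intro h0
        apply hx.2
        apply smul_left_cancel (k : G)
        exact h0.trans (show (k : G) • a = a from k.2.1).symm)
    (by
      intro k x hx h0
      rw [hmem] at hx
      apply Subtype.ext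
      exact hZ.2.2.1 (k : G) a b x hab (Ne.symm hx.1) (Ne.symm hx.2) k.2.1 k.2.2 h0)
  have h3 : Nat.card (S0 : Set Ω) = S0.card := by
    rw [Nat.card_eq_fintype_card]
    simp
  rwa [h3, hS0] at h2

/-- A non-trivial two-point stabiliser forces a third point. -/
theorem exists_third (hZ : Cfsg.IsZassenhausGroup G Ω) {a b : Ω} (hab : a ≠ b)
    (hd : 2 ≤ Nat.card ↥(stabilizer G a ⊓ stabilizer G b)) : ∃ c : Ω, c ≠ a ∧ c ≠ b := by
  classical
  set E : Subgroup G := stabilizer G a ⊓ stabilizer G b with hE
  haveI : Nontrivial E := Finite.one_lt_card_iff_nontrivial.1 (by omega)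
  obtain ⟨⟨e, he⟩, he1⟩ := exists_ne (1 : E)
  have he1' : e ≠ 1 := fun h0 => he1 (Subtype.ext h0)
  by_contra hcon
  push Not at hcon
  apply he1'
  haveI : FaithfulSMul G Ω := hZ.1
  apply FaithfulSMul.eq_of_smul_eq_smul (α := Ω)
  intro x
  rw [one_smul]
  by_cases hxa : x = a
  · rw [hxa]
    exact he.1
  · rw [hcon x hxa]
    exact he.2

/-- In a simple Zassenhaus group with even two-point stabilisers of order `d` the degree is
`2 d + 2`. -/
theorem card_eq_of_even [IsSimpleGroup G] (hZ : Cfsg.IsZassenhausGroup G Ω) {a b : Ω} (hab : a ≠ b)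
    (heven : Even (Nat.card ↥(stabilizer G a ⊓ stabilizer G b))) :
    Fintype.card Ω - 2 = 2 * Nat.card ↥(stabilizer G a ⊓ stabilizer G b) := by
  classical
  set E : Subgroup G := stabilizer G a ⊓ stabilizer G b with hE
  have hd0 : 0 < Nat.card E := Nat.card_pos
  have hd2 : 2 ≤ Nat.card E := by
    obtain ⟨k, hk⟩ := heven
    omega
  have h1 : Fintype.card Ω - 2 ≤ 2 * Nat.card E := Lib.Perm.two_mul_card_ge hZ hab heven
  obtain ⟨k, hk⟩ := card_dvd hZ hab
  have hk2 : k ≤ 2 := by
    by_contra hcon
    have h2 : 3 ≤ k := by omega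
    have h3 : Nat.card E * 3 ≤ Nat.card E * k := Nat.mul_le_mul_left _ h2
    rw [← hE] at hk
    omega
  rw [← hE] at hk
  have hk0 : k ≠ 0 := by
    rintro rfl
    rw [mul_zero] at hk
    obtain ⟨c, hca, hcb⟩ := exists_third hZ hab hd2
    have h4 : ({a, b, c} : Finset Ω).card = 3 := by
      rw [Finset.card_eq_three]
      exact ⟨a, b, c, hab, Ne.symm hca, Ne.symm hcb, rfl⟩
    have h5 : 3 ≤ Fintype.card Ω := by
      rw [← h4]
      exact Finset.card_le_univ _
    omega
  have hk12 : k = 1 ∨ k = 2 := by omega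
  rcases hk12 with rfl | rfl
  · exfalso
    rw [mul_one] at hk
    have h2 : Nat.card E ≤ Fintype.card Ω - 2 := by omega
    exact false_of_sharp hZ hab heven (show Fintype.card Ω = Nat.card E + 2 by omega)
  · rw [hk]
    ring

/-- The two-point stabiliser is cyclic when the degree is `2 d + 2`, `d` even. -/
theorem isCyclic_of_even (hZ : Cfsg.IsZassenhausGroup G Ω) {a b : Ω} (hab : a ≠ b)
    (heven : Even (Nat.card ↥(stabilizer G a ⊓ stabilizer G b)))
    (hn : Fintype.card Ω - 2 = 2 * Nat.card ↥(stabilizer G a ⊓ stabilizer G b)) :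
    IsCyclic ↥(stabilizer G a ⊓ stabilizer G b) ∧
      ∀ s : G, s • a = b → s • b = a → s * s = 1 ∧
        ∀ e ∈ (stabilizer G a ⊓ stabilizer G b : Subgroup G), s * e * s⁻¹ = e⁻¹ := by
  classical
  have hswap := Lib.Perm.ZP.swap_all hZ hab heven hn
  set E : Subgroup G := stabilizer G a ⊓ stabilizer G b with hE
  set d := Nat.card E with hd
  have hd0 : 0 < d := Nat.card_pos
  have hd2 : 2 ≤ d := by
    obtain ⟨k, hk⟩ := heven
    omega
  obtain ⟨c, hca, hcb⟩ := exists_third hZ hab hd2
  have h4 : ({a, b, c} : Finset Ω).card = 3 := by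
    rw [Finset.card_eq_three]
    exact ⟨a, b, c, hab, Ne.symm hca, Ne.symm hcb, rfl⟩
  have h5 : 3 ≤ Fintype.card Ω := by
    rw [← h4]
    exact Finset.card_le_univ _
  have hΩ : Fintype.card Ω = 2 * d + 2 := by omega
  have hinv : ∀ s : G, s • a = b → s • b = a → ∀ e ∈ E, s * e * s⁻¹ = e⁻¹ := by
    intro s h1 h2 e he
    have h3 : (s * e) • a = b := by
      rw [mul_smul, show e • a = a from he.1, h1]
    have h4 : (s * e) • b = a := by
      rw [mul_smul, show e • b = b from he.2, h2]
    have h5 := (hswap (s * e) h3 h4).1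
    have h6 := (hswap s h1 h2).1
    have h7 : s⁻¹ = s := inv_eq_of_mul_eq_one_left h6
    rw [h7, eq_inv_iff_mul_eq_one]
    calc s * e * s * e = (s * e) * (s * e) := by group
      _ = 1 := h5
  refine ⟨?_, fun s h1 h2 => ⟨(hswap s h1 h2).1, hinv s h1 h2⟩⟩
  obtain ⟨s₀, hs₀a, hs₀b⟩ := Lib.Char.zass_two_trans hZ a b b a hab (Ne.symm hab)
  have hEcomm : ∀ e f : E, e * f = f * e := by
    intro e f
    apply Subtype.ext
    have h1 := hinv s₀ hs₀a hs₀b _ (mul_mem e.2 f.2)
    have h2 := hinv s₀ hs₀a hs₀b _ e.2
    have h3 := hinv s₀ hs₀a hs₀b _ f.2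
    have h4 : s₀ * ((e : G) * f) * s₀⁻¹ = (s₀ * e * s₀⁻¹) * (s₀ * f * s₀⁻¹) := by group
    rw [h4, h2, h3, ← mul_inv_rev] at h1
    have h5 := inv_injective h1
    exact h5.symm
  obtain ⟨F, hFa, hFc, hFfix, hFreg, hFconj⟩ := exists_reg hZ hab
  have hFcomm : IsMulCommutative F := by
    have h1 := Cfsg.Agent.S0738.result hZ hab (by rw [hn]) F hFa
      ⟨fun n hn g => by
        have h2 : ((g : G) * (n : stabilizer G a) * (g : G)⁻¹) ∈ F :=
          hFconj g.2 (Subgroup.mem_subgroupOf.mp hn)
        exact Subgroup.mem_subgroupOf.mpr h2⟩ hFreg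
    exact h1.1
  letI iC : CommGroup F := { (inferInstance : Group F) with mul_comm := hFcomm.is_comm.comm }
  let cF : E → F → F := fun e u => ⟨(e : G) * u * (e : G)⁻¹, hFconj e.2.1 u.2⟩
  let μ : E →* AddMonoid.End (Additive F) :=
    { toFun := fun e =>
        { toFun := fun u => Additive.ofMul (cF e (Additive.toMul u))
          map_zero' := by
            apply Additive.toMul.injective
            apply Subtype.ext
            show (e : G) * 1 * (e : G)⁻¹ = 1
            group
          map_add' := fun u v => by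
            apply Additive.toMul.injective
            apply Subtype.ext
            show (e : G) * (((Additive.toMul u : F) : G) * ((Additive.toMul v : F) : G)) * (e : G)⁻¹ =
              ((e : G) * ((Additive.toMul u : F) : G) * (e : G)⁻¹) * ((e : G) * ((Additive.toMul v : F) : G) * (e : G)⁻¹)
            group }
      map_one' := by
        apply AddMonoidHom.ext
        intro u
        apply Additive.toMul.injective
        apply Subtype.ext
        show (1 : G) * ((Additive.toMul u : F) : G) * (1 : G)⁻¹ = ((Additive.toMul u : F) : G)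
        group
      map_mul' := fun e f => by
        apply AddMonoidHom.ext
        intro u
        apply Additive.toMul.injective
        apply Subtype.ext
        show ((e : G) * (f : G)) * ((Additive.toMul u : F) : G) * ((e : G) * (f : G))⁻¹ =
          (e : G) * ((f : G) * ((Additive.toMul u : F) : G) * (f : G)⁻¹) * (e : G)⁻¹
        group }
  have hμ : ∀ (e : E) (u : Additive F), ((Additive.toMul (μ e u) : F) : G) =
      (e : G) * ((Additive.toMul u : F) : G) * (e : G)⁻¹ := fun _ _ => rfl
  have hfree : ∀ (e : E) (u : Additive F), μ e u = u → e = 1 ∨ u = 0 := by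
    intro e u hu
    by_cases hu0 : u = 0
    · exact Or.inr hu0
    left
    have hg1 : ((Additive.toMul u : F) : G) ≠ 1 := by
      intro h0
      apply hu0
      apply Additive.toMul.injective
      exact Subtype.ext h0
    set g : G := ((Additive.toMul u : F) : G) with hg
    have hgF : g ∈ F := (Additive.toMul u : F).2
    have hc : (e : G) * g * (e : G)⁻¹ = g := by
      have := hμ e u
      rw [hu] at this
      exact this.symm
    have hgb : g • b ≠ b := fun h0 => hab (hFfix g hgF hg1 b h0).symm
    have hga : g • b ≠ a := by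
      intro h0
      have h1 : g • a = a := hFa hgF
      exact hab (smul_left_cancel g (h1.trans h0.symm))
    have heb : (e : G) • (g • b) = g • b := by
      have h1 : (e : G) • b = b := e.2.2
      calc (e : G) • (g • b) = ((e : G) * g * (e : G)⁻¹) • ((e : G) • b) := by
            rw [← mul_smul, ← mul_smul, show (e : G) * g * (e : G)⁻¹ * (e : G) = (e : G) * g by group]
        _ = g • b := by rw [hc, h1]
    have h3 := Lib.Char.zass_eq_one hZ hab (Ne.symm hgb) (Ne.symm hga) e.2.1 e.2.2 heb
    exact Subtype.ext h3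
  have hcardA : Nat.card (Additive F) = 2 * Nat.card E + 1 := by
    have h1 : Nat.card (Additive F) = Nat.card F := rfl
    rw [h1]
    omega
  obtain ⟨p, f, K, iF, iT, hp, hf, hK, hpf, κ, ε, hεinj, hκ⟩ :=
    Lib.Perm.ZP.exists_field_of_free hEcomm μ hfree hcardA
  exact isCyclic_of_subgroup_isDomain ((Units.coeHom K).comp ε) (by
    intro x y hxy
    exact hεinj (Units.ext hxy))

end Cfsg.Agent.Lib.ZassEven
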